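import Cfsg.Agent.H215.WB.WSide
import Cfsg.Agent.H549.NW.Grp

/-!
# S4884, block D: the Weyl side for type `B_n` (unconditional)
-/

set_option autoImplicit false

namespace Cfsg.Agent.H215.WB

open Cfsg Cfsg.Agent.Characters.Core Cfsg.Agent.H439.CC

theorem YY_eq (n : ℕ) (K : Finset ℕ) : H549.NW.YY n K = Yn n K := by
  unfold H549.NW.YY Yn
  congr 1
  ext σ
  constructor
  · rintro ⟨i, h, hi, rfl⟩
    exact ⟨⟨i, Nat.lt_of_succ_lt h⟩, h, hi, rfl⟩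
  · rintro ⟨i, h, hi, rfl⟩
    exact ⟨i, h, hi, rfl⟩

theorem newtonS (n : ℕ) : NewtonS n := by
  intro ψ hψ w hw
  simp only [← YY_eq]
  refine H549.NW.newton_perm ?_ (sum_dig n) (fun g h => hψ h g) ?_
  · intro d hd
    obtain ⟨i, hi, -⟩ := mem_dig hd
    rw [hi]
    exact Nat.one_le_two_pow
  · rw [← hw]
    rfl

section B

variable {n : ℕ} {W : Type*} [Group W] (cs : CoxeterSystem (CoxeterMatrix.B n) W)

/-- **The Weyl side for type `B_n`** -/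
theorem wside_B : WSide cs n JB := wside_B_of cs (newtonS n)

/-- `|∑_K co(K) ⟨1_{W_J(K)}, φ⟩| ≤ 1` -/
theorem abs_B {φ : W → ℂ} (hφ : IsIrrCharacter W φ) :
    ∃ z : ℤ, |z| ≤ 1 ∧ ∑ K ∈ (Finset.Icc 1 n).powerset, (coL (dig n) K : ℂ) * mu (WJ cs (JB K ())) φ = z :=
  bound_B cs (newtonS n) hφ

end B

end Cfsg.Agent.H215.WB
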