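import Cfsg.Agent.H215.WB.CoxB
import Cfsg.Agent.H549.PBA.BinPerm
import Cfsg.Agent.H439.CC.Defs
import Cfsg.Agent.H617.EqD.CoL

/-!
# S4884, block D: the Weyl side for type `B_n`, from the identity for the symmetric group

`NewtonS n` : the class function identity `∑_K co(K) ⟨1_{Y_K}, ψ⟩ = ψ(w)` in `S_n` (`Y_K` the Young subgroups).
-/

set_option autoImplicit false
set_option linter.unusedSectionVars false

namespace Cfsg.Agent.H215.WB

open Cfsg Cfsg.Agent.Characters.Core Cfsg.Agent.H439.CC Cfsg.Agent.H549.PBA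

/-! ### multiplicities -/

theorem mu_map {A G : Type*} [Group A] [Group G] (f : A →* G) (hf : Function.Injective f) (P : Subgroup A) (χ : G → ℂ) :
    mu (P.map f) χ = mu P (χ ∘ f) := by
  unfold mu
  rw [Nat.card_congr (P.equivMapOfInjective f hf).toEquiv]
  congr 1
  exact (finsum_eq_of_bijective (P.equivMapOfInjective f hf) (P.equivMapOfInjective f hf).bijective fun x => rfl).symm

/-! ### the digits -/

theorem sum_dig (n : ℕ) : (dig n).sum = n := by
  unfold dig
  exact Nat.sum_map_two_pow_bitIndices n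

theorem coL_ne : ∀ (ds : List ℕ) (K : Finset ℕ), ds ≠ [] → coL ds K ≠ 0 → ds.sum ∈ K := by
  intro ds
  induction ds with
  | nil => intro K h; exact absurd rfl h
  | cons k ds ih =>
    intro K _ h
    rw [coL] at h
    by_cases hk : k ∈ K
    · rw [dif_pos hk] at h
      have h1 := right_ne_zero_of_mul h
      by_cases hds : ds = []
      · rw [hds, List.sum_cons, List.sum_nil, add_zero]
        exact hk
      · have h2 := ih _ hds h1
        rw [Finset.mem_image] at h2
        obtain ⟨x, hx, hxe⟩ := h2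
        rw [Finset.mem_filter] at hx
        rw [List.sum_cons]
        have h3 : k + ds.sum = x := by omega
        rw [h3]
        exact hx.1
    · rw [dif_neg hk] at h
      exact absurd rfl h

theorem SI_of_fast : ∀ u : List ℕ, Fast u → SI (u : Multiset ℕ) := by
  intro u
  induction u with
  | nil => intro _; exact SI.zero
  | cons r u ih =>
    intro h
    rw [← Multiset.cons_coe]
    refine SI.cons r _ (ih h.2) ?_
    rw [Multiset.sum_coe]
    exact h.1

theorem SI_dig (n : ℕ) : SI (dig n : Multiset ℕ) := by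
  obtain ⟨u, hu, he⟩ := exists_fast (s := (dig n : Multiset ℕ)) (by
    rw [Multiset.coe_nodup]
    unfold dig
    exact (List.nodup_map_iff (Nat.pow_right_injective le_rfl)).2 Nat.bitIndices_nodup) (by
    intro x hx
    rw [Multiset.mem_coe] at hx
    unfold dig at hx
    obtain ⟨i, -, rfl⟩ := List.mem_map.1 hx
    exact ⟨i, rfl⟩)
  rw [← he]
  exact SI_of_fast u hu

theorem mem_dig {n x : ℕ} (hx : x ∈ dig n) : ∃ i, x = 2 ^ i ∧ x ≤ n := by
  unfold dig at hx
  obtain ⟨i, hi, rfl⟩ := List.mem_map.1 hx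
  exact ⟨i, rfl, Nat.two_pow_le_of_mem_bitIndices hi⟩

/-- an element with cycle lengths the binary digits -/
theorem exists_w (n : ℕ) : ∃ w : Equiv.Perm (Fin n), tp w = (dig n : Multiset ℕ) := by
  set s : Multiset ℕ := (dig n : Multiset ℕ) with hs
  set t : Multiset ℕ := s.filter fun x => 2 ≤ x with ht
  have hsum : s.sum = n := by rw [hs, Multiset.sum_coe, sum_dig]
  have hle : t.sum ≤ n := by
    rw [← hsum]
    exact sum_le_of_le (Multiset.filter_le _ _)
  obtain ⟨w, hw⟩ := Equiv.Perm.exists_with_cycleType_iff (Fin n) |>.2 (⟨by rw [Fintype.card_fin]; exact hle,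
    fun a ha => (Multiset.mem_filter.1 ha).2⟩ : t.sum ≤ Fintype.card (Fin n) ∧ ∀ a ∈ t, 2 ≤ a)
  refine ⟨w, ?_⟩
  rw [tp_eq, hw, Fintype.card_fin]
  have h1 : s = t + s.filter (fun x => ¬ 2 ≤ x) := (Multiset.filter_add_not _ _).symm
  have h2 : ∀ x ∈ s.filter (fun x => ¬ 2 ≤ x), x = 1 := by
    intro x hx
    rw [Multiset.mem_filter, hs, Multiset.mem_coe] at hx
    obtain ⟨i, hi, -⟩ := mem_dig hx.1
    have : 0 < x := by rw [hi]; positivity
    omega
  have h3 := Multiset.eq_replicate_card.2 h2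
  have h4 : (s.filter fun x => ¬ 2 ≤ x).sum = Multiset.card (s.filter fun x => ¬ 2 ≤ x) := by
    conv_lhs => rw [h3]
    rw [Multiset.sum_replicate, smul_eq_mul, mul_one]
  have h5 : n - t.sum = Multiset.card (s.filter fun x => ¬ 2 ≤ x) := by
    rw [← h4, ← hsum]
    conv_lhs => rw [h1]
    rw [Multiset.sum_add]
    omega
  rw [h5, ← h3]
  exact h1.symm

theorem orderOf_w {n : ℕ} {w : Equiv.Perm (Fin n)} (hw : tp w = (dig n : Multiset ℕ)) : ∃ k, orderOf w = 2 ^ k := by
  have h1 : orderOf w ∣ 2 ^ n := by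
    rw [← Equiv.Perm.lcm_cycleType, Multiset.lcm_dvd]
    intro x hx
    have h2 : x ∈ (dig n : Multiset ℕ) := by
      rw [← hw, tp_eq, Multiset.mem_add]
      exact Or.inl hx
    obtain ⟨i, hi, hin⟩ := mem_dig (Multiset.mem_coe.1 h2)
    rw [hi]
    refine pow_dvd_pow 2 ?_
    have h3 : i < 2 ^ i := Nat.lt_two_pow_self
    omega
  obtain ⟨k, -, hk⟩ := (Nat.dvd_prime_pow Nat.prime_two).1 h1
  exact ⟨k, hk⟩

/-! ### the Weyl side -/

/-- the standard Young subgroup of type `K` -/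
def Yn (n : ℕ) (K : Finset ℕ) : Subgroup (Equiv.Perm (Fin n)) :=
  Subgroup.closure {σ | ∃ (i : Fin n) (h : (i : ℕ) + 1 < n), (i : ℕ) + 1 ∉ K ∧ σ = Equiv.swap i ⟨i + 1, h⟩}

/-- **the identity in the symmetric group** -/
def NewtonS (n : ℕ) : Prop :=
  ∀ ψ : Equiv.Perm (Fin n) → ℂ, IsClassFunction (Equiv.Perm (Fin n)) ψ → ∀ w : Equiv.Perm (Fin n),
    tp w = (dig n : Multiset ℕ) →
    ∑ K ∈ (Finset.Icc 1 n).powerset, (coL (dig n) K : ℂ) * mu (Yn n K) ψ = ψ w

section B

variable {n : ℕ} {W : Type*} [Group W] (cs : CoxeterSystem (CoxeterMatrix.B n) W)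

/-- `S_n` in `W(B_n)` -/
noncomputable def emb : Equiv.Perm (Fin n) →* W :=
  (isoB cs).symm.toMonoidHom.comp (SemidirectProduct.inr : Equiv.Perm (Fin n) →* Wb (Fin n))

theorem emb_injective : Function.Injective (emb cs) := by
  intro a b h
  exact SemidirectProduct.inr_injective ((isoB cs).symm.injective h)

theorem emb_swap {i : Fin n} (h : (i : ℕ) + 1 < n) : emb cs (Equiv.swap i ⟨i + 1, h⟩) = cs.simple i := by
  change (isoB cs).symm _ = _
  rw [← isoB_simple_lt cs h, MulEquiv.symm_apply_apply]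

theorem WJ_eq {K : Finset ℕ} (hK : n ∈ K ∨ n = 0) : WJ cs (JB K ()) = (Yn n K).map (emb cs) := by
  unfold WJ Yn
  rw [MonoidHom.map_closure]
  congr 1
  ext x
  constructor
  · rintro ⟨i, hi, rfl⟩
    have hi' : (i : ℕ) + 1 ∉ K := hi
    have h1 : (i : ℕ) + 1 < n := by
      rcases hK with h | h
      · have h2 : (i : ℕ) + 1 ≠ n := fun h3 => hi' (by rw [h3]; exact h)
        have := i.2
        omega
      · exact absurd i.2 (by omega)
    exact ⟨_, ⟨i, h1, hi', rfl⟩, emb_swap cs h1⟩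
  · rintro ⟨_, ⟨i, h, hi, rfl⟩, rfl⟩
    exact ⟨i, hi, (emb_swap cs h).symm⟩

/-- `∑_K co(K) ⟨1_{W_J(K)}, φ⟩ = φ(w)` -/
theorem sum_B (hN : NewtonS n) {φ : W → ℂ} (hφ : IsClassFunction W φ) {w : Equiv.Perm (Fin n)}
    (hw : tp w = (dig n : Multiset ℕ)) :
    ∑ K ∈ (Finset.Icc 1 n).powerset, (coL (dig n) K : ℂ) * mu (WJ cs (JB K ())) φ = φ (emb cs w) := by
  have h1 := hN (φ ∘ emb cs) (by
    intro g x
    change φ (emb cs (x * g * x⁻¹)) = φ (emb cs g)
    rw [map_mul, map_mul, map_inv]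
    exact hφ _ _) w hw
  rw [Function.comp_apply] at h1
  rw [← h1]
  refine Finset.sum_congr rfl fun K _ => ?_
  by_cases hc : coL (dig n) K = 0
  · rw [hc, Int.cast_zero, zero_mul, zero_mul]
  · rw [WJ_eq cs, mu_map _ (emb_injective cs)]
    by_cases h0 : dig n = []
    · right
      rw [← sum_dig n, h0, List.sum_nil]
    · left
      have := coL_ne _ _ h0 hc
      rwa [sum_dig] at this

/-- **`|∑_K co(K) ⟨1_{W_J(K)}, φ⟩| ≤ 1`** -/
theorem bound_B (hN : NewtonS n) {φ : W → ℂ} (hφ : IsIrrCharacter W φ) :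
    ∃ z : ℤ, |z| ≤ 1 ∧ ∑ K ∈ (Finset.Icc 1 n).powerset, (coL (dig n) K : ℂ) * mu (WJ cs (JB K ())) φ = z := by
  obtain ⟨w, hw⟩ := exists_w n
  rw [sum_B cs hN (isIrr_isClassFunction hφ) hw]
  rcases coxB cs hφ (w := w) (by rw [hw]; exact SI_dig n) with h | h | h
  · exact ⟨0, by norm_num, by rw [Int.cast_zero]; exact h⟩
  · exact ⟨1, by norm_num, by rw [Int.cast_one]; exact h⟩
  · exact ⟨-1, by norm_num, by rw [Int.cast_neg, Int.cast_one]; exact h⟩

/-- **The Weyl side for type `B_n`** -/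
theorem wside_B_of (hN : NewtonS n) : WSide cs n JB := by
  intro φ hne
  have : Finite W := Finite.of_equiv _ (isoB cs).symm.toEquiv
  obtain ⟨w, hw⟩ := exists_w n
  have h1 : ∑ K ∈ (Finset.Icc 1 n).powerset, ∑ j : Unit, (coL (dig n) K : ℂ) * mu (WJ cs (JB K j)) φ = φ.1 (emb cs w) := by
    rw [← sum_B cs hN (isIrr_isClassFunction φ.2) hw]
    refine Finset.sum_congr rfl fun K _ => ?_
    rw [Finset.univ_unique, Finset.sum_singleton]
  rw [h1] at hne
  obtain ⟨k, hk⟩ := orderOf_w hw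
  have h2 : ∃ k, orderOf (emb cs w) = 2 ^ k := ⟨k, by rw [orderOf_injective _ (emb_injective cs), hk]⟩
  rcases coxB cs φ.2 (w := w) (by rw [hw]; exact SI_dig n) with h | h | h
  · exact absurd h hne
  · exact odd_of_value φ.2 h2 (z := 1) (by rw [Int.cast_one]; exact h) (by norm_num)
  · exact odd_of_value φ.2 h2 (z := -1) (by rw [Int.cast_neg, Int.cast_one]; exact h) (by norm_num)

end B

end Cfsg.Agent.H215.WB
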